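import Cfsg.Agent.ClassicalGeometry.PSL2Basic
import Cfsg.Agent.SignalizersComponents.LayerBasic

set_option autoImplicit false
set_option linter.style.haveILetI false
namespace Cfsg.Agent.H876.L64

open Matrix Subgroup

section Field

variable {F : Type*} [Field F]

/-- the commutant of a matrix with off-diagonal part -/
theorem exists_lin {c x : Matrix (Fin 2) (Fin 2) F} (hc : ∀ a : F, c ≠ a • 1) (hx : x * c = c * x) :
    ∃ α β : F, x = α • 1 + β • c := by
  have h00 := congrFun (congrFun hx 0) 0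
  have h01 := congrFun (congrFun hx 0) 1
  have h10 := congrFun (congrFun hx 1) 0
  simp only [Matrix.mul_apply, Fin.sum_univ_two] at h00 h01 h10
  by_cases h1 : c 0 1 ≠ 0
  · refine ⟨x 0 0 - x 0 1 / c 0 1 * c 0 0, x 0 1 / c 0 1, ?_⟩
    ext i j
    fin_cases i <;> fin_cases j <;> simp
    · field_simp
    · field_simp; linear_combination -h00
    · field_simp; linear_combination -h01
  · push Not at h1
    by_cases h2 : c 1 0 ≠ 0
    · refine ⟨x 0 0 - x 1 0 / c 1 0 * c 0 0, x 1 0 / c 1 0, ?_⟩
      ext i j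
      fin_cases i <;> fin_cases j <;> simp
      · field_simp; linear_combination h00
      · field_simp
      · field_simp; linear_combination h10
    · push Not at h2
      have h3 : c 0 0 ≠ c 1 1 := by
        intro h
        apply hc (c 0 0)
        ext i j
        fin_cases i <;> fin_cases j <;> simp [h1, h2, h]
      have h4 : c 0 0 - c 1 1 ≠ 0 := sub_ne_zero.2 h3
      rw [h1] at h01
      rw [h2] at h10
      have x01 : x 0 1 = 0 := by
        have : x 0 1 * (c 0 0 - c 1 1) = 0 := by linear_combination -h01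
        exact (mul_eq_zero.1 this).resolve_right h4
      have x10 : x 1 0 = 0 := by
        have : x 1 0 * (c 0 0 - c 1 1) = 0 := by linear_combination h10
        exact (mul_eq_zero.1 this).resolve_right h4
      refine ⟨x 0 0 - (x 0 0 - x 1 1) / (c 0 0 - c 1 1) * c 0 0, (x 0 0 - x 1 1) / (c 0 0 - c 1 1), ?_⟩
      ext i j
      fin_cases i <;> fin_cases j <;> simp [h1, h2, x01, x10]
      all_goals (field_simp; ring)

variable [Fintype F]

theorem no_root (hF : Fintype.card F = 64) {c : SpecialLinearGroup (Fin 2) F} (h13 : orderOf c = 13) (t : F) :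
    t ^ 2 - (c.1 0 0 + c.1 1 1) * t + 1 ≠ 0 := by
  intro h
  have h2 : (2 : F) = 0 := by
    have : ((64 : ℕ) : F) = 0 := by
      rw [← hF]; exact Nat.cast_card_eq_zero F
    have h64 : (2 : F) ^ 6 = 0 := by
      rw [← this]; norm_num
    exact pow_eq_zero_iff (by norm_num) |>.1 h64
  have hdet : c.1 0 0 * c.1 1 1 - c.1 0 1 * c.1 1 0 = 1 := by
    rw [← Matrix.det_fin_two]; exact c.2
  have ht0 : t ≠ 0 := by
    rintro rfl
    simp at h
  -- an eigenvector
  have hd : (c.1 - t • (1 : Matrix (Fin 2) (Fin 2) F)).det = 0 := by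
    rw [Matrix.det_fin_two]
    simp
    linear_combination h + hdet
  obtain ⟨v, hv, hv2⟩ := Matrix.exists_mulVec_eq_zero_iff.2 hd
  have hcv : c.1.mulVec v = t • v := by
    rw [Matrix.sub_mulVec, Matrix.smul_mulVec, Matrix.one_mulVec] at hv2
    exact sub_eq_zero.1 hv2
  have hpow : ∀ n : ℕ, (c ^ n).1.mulVec v = t ^ n • v := by
    intro n
    induction n with
    | zero => simp
    | succ n ih =>
      rw [pow_succ, show (c ^ n * c).1 = (c ^ n).1 * c.1 from rfl, ← Matrix.mulVec_mulVec, hcv, Matrix.mulVec_smul, ih,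
        smul_smul, pow_succ, mul_comm]
  have h13v := hpow 13
  rw [← h13, pow_orderOf_eq_one, show (1 : SpecialLinearGroup (Fin 2) F).1 = 1 from rfl, Matrix.one_mulVec, h13] at h13v
  have ht13 : t ^ 13 = 1 := by
    by_contra hne
    have : (t ^ 13 - 1) • v = 0 := by rw [sub_smul, one_smul, ← h13v, sub_self]
    rcases smul_eq_zero.1 this with h' | h'
    · exact hne (sub_eq_zero.1 h')
    · exact hv h'
  have ht63 : t ^ 63 = 1 := by
    have := FiniteField.pow_card_sub_one_eq_one t ht0
    rwa [hF] at this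
  have ht1 : t = 1 := by
    have := orderOf_dvd_of_pow_eq_one ht13
    have h' := orderOf_dvd_of_pow_eq_one ht63
    have : orderOf t ∣ Nat.gcd 13 63 := Nat.dvd_gcd this h'
    have : orderOf t = 1 := Nat.dvd_one.1 (by simpa using this)
    exact orderOf_eq_one_iff.1 this
  subst ht1
  have htr : c.1 0 0 + c.1 1 1 = 0 := by linear_combination -h + h2
  have hsq : c ^ 2 = 1 := by
    apply Subtype.ext
    rw [pow_two]
    change c.1 * c.1 = 1
    ext i j
    fin_cases i <;> fin_cases j <;> simp [Matrix.mul_apply, Fin.sum_univ_two]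
    · linear_combination c.1 0 0 * htr - hdet - h2
    · linear_combination c.1 0 1 * htr
    · linear_combination c.1 1 0 * htr
    · linear_combination c.1 1 1 * htr - hdet - h2
  have := orderOf_dvd_of_pow_eq_one hsq
  rw [h13] at this
  omega

theorem pow_of_comm (hF : Fintype.card F = 64) {a b : SpecialLinearGroup (Fin 2) F} (ha : orderOf a = 65)
    (hb : b ^ 65 = 1) (hab : b * a ^ 5 = a ^ 5 * b) : ∃ i : ℕ, a ^ i = b := by
  classical
  set c := a ^ 5 with hc
  have h13 : orderOf c = 13 := by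
    rw [hc, orderOf_pow, ha]; norm_num
  have hnr := no_root hF h13
  have hdet : c.1 0 0 * c.1 1 1 - c.1 0 1 * c.1 1 0 = 1 := by
    rw [← Matrix.det_fin_two]; exact c.2
  have hns : ∀ a : F, c.1 ≠ a • 1 := by
    intro s hs
    apply hnr s
    rw [hs] at hdet ⊢
    simp at hdet ⊢
    linear_combination -hdet
  set C : Subring (Matrix (Fin 2) (Fin 2) F) := Subring.centralizer {c.1} with hCdef
  have hmem : ∀ x, x ∈ C ↔ x * c.1 = c.1 * x := by
    intro x
    rw [hCdef, Subring.mem_centralizer_iff]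
    constructor
    · intro h; exact (h _ rfl).symm
    · rintro h _ rfl; exact h.symm
  have hcomm : ∀ x y : C, x * y = y * x := by
    intro x y
    obtain ⟨α, β, hx⟩ := exists_lin hns ((hmem _).1 x.2)
    obtain ⟨γ, δ, hy⟩ := exists_lin hns ((hmem _).1 y.2)
    apply Subtype.ext
    change x.1 * y.1 = y.1 * x.1
    rw [hx, hy]
    simp only [add_mul, mul_add, smul_mul_assoc, mul_smul_comm, one_mul, mul_one]
    module
  letI : CommRing C := { (inferInstance : Ring C) with mul_comm := hcomm }
  have hinv : ∀ x : C, x ≠ 0 → x.1.det ≠ 0 := by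
    intro x hx0 hx
    obtain ⟨α, β, hxe⟩ := exists_lin hns ((hmem _).1 x.2)
    apply hx0
    apply Subtype.ext
    change x.1 = 0
    have h1 : x.1.det = α ^ 2 + α * β * (c.1 0 0 + c.1 1 1) + β ^ 2 := by
      rw [hxe, Matrix.det_fin_two]
      simp
      linear_combination β ^ 2 * hdet
    rw [h1] at hx
    by_cases hβ : β = 0
    · rw [hβ] at hx
      have : α = 0 := by
        have : α ^ 2 = 0 := by linear_combination hx
        exact pow_eq_zero_iff (by norm_num) |>.1 this
      rw [hxe, hβ, this]; simp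
    · exfalso
      apply hnr (-(α / β))
      field_simp
      linear_combination hx
  haveI : NoZeroDivisors C := by
    refine ⟨fun {x y} hxy => ?_⟩
    by_contra hne
    push Not at hne
    have h1 := hinv x hne.1
    have h2 := hinv y hne.2
    have h3 : x.1 * y.1 = 0 := congrArg Subtype.val hxy
    have h4 := congrArg Matrix.det h3
    rw [Matrix.det_mul, Matrix.det_zero] at h4
    exact mul_ne_zero h1 h2 h4
  haveI : Nontrivial C := inferInstance
  haveI : IsDomain C := NoZeroDivisors.to_isDomain _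
  have haC : a.1 ∈ C := by
    rw [hmem, hc]
    have : a * a ^ 5 = a ^ 5 * a := by rw [← pow_succ, ← pow_succ']
    have := congrArg Subtype.val this
    simpa using this
  have hbC : b.1 ∈ C := by
    rw [hmem]
    have := congrArg Subtype.val hab
    simpa using this
  have hprim : IsPrimitiveRoot (⟨a.1, haC⟩ : C) 65 := by
    constructor
    · apply Subtype.ext
      change a.1 ^ 65 = 1
      have := congrArg Subtype.val (pow_orderOf_eq_one a)
      rw [ha] at this
      simpa using this
    · intro l hl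
      rw [← ha]
      apply orderOf_dvd_of_pow_eq_one
      apply Subtype.ext
      have := congrArg Subtype.val hl
      simpa using this
  obtain ⟨i, -, hi⟩ := hprim.eq_pow_of_pow_eq_one (ξ := (⟨b.1, hbC⟩ : C)) (by
    apply Subtype.ext
    change b.1 ^ 65 = 1
    have := congrArg Subtype.val hb
    simpa using this)
  refine ⟨i, ?_⟩
  apply Subtype.ext
  have := congrArg Subtype.val hi
  simpa using this

theorem sl65 (hF : Fintype.card F = 64) {a b : SpecialLinearGroup (Fin 2) F} (ha : orderOf a = 65)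
    (hb : orderOf b = 65) : ∃ (s : SpecialLinearGroup (Fin 2) F) (i : ℕ), b = s * a ^ i * s⁻¹ := by
  classical
  haveI : Fact (Nat.Prime 13) := ⟨by norm_num⟩
  have hcard : Nat.card (SpecialLinearGroup (Fin 2) F) = 13 * (64 * 9 * 7 * 5) := by
    rw [ClassicalGeometry.PSL2Basic.card_SL2, hF]; norm_num
  have hfac : (Nat.card (SpecialLinearGroup (Fin 2) F)).factorization 13 = 1 := by
    rw [hcard, Nat.factorization_mul (by norm_num) (by norm_num), Nat.Prime.factorization (by norm_num)]
    simp only [Finsupp.add_apply, Finsupp.single_eq_same]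
    rw [Nat.factorization_eq_zero_of_not_dvd (by norm_num)]
  have key : ∀ {x : SpecialLinearGroup (Fin 2) F}, orderOf x = 65 →
      Nat.card (zpowers (x ^ 5)) = 13 ^ (Nat.card (SpecialLinearGroup (Fin 2) F)).factorization 13 := by
    intro x hx
    rw [Nat.card_zpowers, orderOf_pow, hx, hfac]; norm_num
  set A : Sylow 13 (SpecialLinearGroup (Fin 2) F) := Sylow.ofCard _ (key ha) with hA
  set B : Sylow 13 (SpecialLinearGroup (Fin 2) F) := Sylow.ofCard _ (key hb) with hB
  obtain ⟨g, hg⟩ := MulAction.exists_smul_eq (SpecialLinearGroup (Fin 2) F) A B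
  -- a1 = g a g⁻¹
  have h1 : b ^ 5 ∈ (B : Subgroup (SpecialLinearGroup (Fin 2) F)) := by
    rw [hB]; exact mem_zpowers _
  rw [← hg] at h1
  have h2 : b ^ 5 ∈ ((A : Subgroup (SpecialLinearGroup (Fin 2) F))).map (MulAut.conj g).toMonoidHom := h1
  have h3 : (A : Subgroup (SpecialLinearGroup (Fin 2) F)) = zpowers (a ^ 5) := by rw [hA]; rfl
  rw [h3] at h2
  obtain ⟨y, hy, hy2⟩ := mem_map.1 h2
  obtain ⟨j, rfl⟩ := mem_zpowers_iff.1 hy
  have hconj : b ^ 5 = ((g * a * g⁻¹) ^ 5) ^ j := by
    rw [← hy2]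
    change g * (a ^ 5) ^ j * g⁻¹ = _
    rw [conj_pow, conj_zpow]
  -- so g a g⁻¹ commutes with b ^ 5
  obtain ⟨i, hi⟩ := pow_of_comm hF hb (b := g * a * g⁻¹) (by
    rw [conj_pow, ← ha, pow_orderOf_eq_one]; simp) (by
    rw [hconj]
    exact (((Commute.refl (g * a * g⁻¹)).pow_right 5).zpow_right j).eq)
  -- g a g⁻¹ = b ^ i, so b is a power of g a g⁻¹
  have hord : orderOf (g * a * g⁻¹) = 65 := by
    rw [← ha]
    exact (MulAut.conj g).orderOf_eq a
  have hcop : Nat.Coprime 65 i := by
    rw [← hi, orderOf_pow, hb] at hord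
    have hpos : 0 < Nat.gcd 65 i := Nat.gcd_pos_of_pos_left _ (by norm_num)
    have hd : Nat.gcd 65 i ∣ 65 := Nat.gcd_dvd_left _ _
    have := Nat.div_mul_cancel hd
    rw [hord] at this
    unfold Nat.Coprime
    omega
  obtain ⟨k, hk⟩ := exists_pow_eq_self_of_coprime (x := b) (n := i) (by rw [hb]; exact hcop.symm)
  refine ⟨g, k, ?_⟩
  rw [← hk, hi, conj_pow]

end Field

theorem psl65 {F : Type*} [Field F] [Fintype F] (hF : Fintype.card F = 64) {a b : ProjectiveSpecialLinearGroup (Fin 2) F}
    (ha : orderOf a = 65) (hb : orderOf b = 65) :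
    ∃ (s : ProjectiveSpecialLinearGroup (Fin 2) F) (i : ℕ), b = s * a ^ i * s⁻¹ := by
  classical
  have h2 : (2 : F) = 0 := by
    have : ((64 : ℕ) : F) = 0 := by
      rw [← hF]; exact Nat.cast_card_eq_zero F
    have h64 : (2 : F) ^ 6 = 0 := by
      rw [← this]; norm_num
    exact pow_eq_zero_iff (by norm_num) |>.1 h64
  have hZ : center (SpecialLinearGroup (Fin 2) F) = ⊥ :=
    Subgroup.eq_bot_of_card_eq _ (ClassicalGeometry.PSL2Basic.card_center_SL2_even h2)
  have hinj : Function.Injective (QuotientGroup.mk' (center (SpecialLinearGroup (Fin 2) F))) := by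
    rw [← MonoidHom.ker_eq_bot_iff, QuotientGroup.ker_mk', hZ]
  obtain ⟨a0, rfl⟩ := QuotientGroup.mk'_surjective _ a
  obtain ⟨b0, rfl⟩ := QuotientGroup.mk'_surjective _ b
  rw [orderOf_injective _ hinj] at ha hb
  obtain ⟨s, i, h⟩ := sl65 hF ha hb
  exact ⟨QuotientGroup.mk' _ s, i, by rw [h]; simp⟩

/-- the subgroups of order 65 of `L₂(64)` are conjugate -/
theorem conj65 {X : Type*} [Group X] {N : Subgroup X} [hN : N.Normal] {F : Type*} [Field F] [Fintype F]
    (hF : Fintype.card F = 64) (e : ↥N ≃* ProjectiveSpecialLinearGroup (Fin 2) F) {y : X} (hy : y ∈ N)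
    (h65 : orderOf y = 65) (h : X) : ∃ s ∈ N, ∃ i : ℤ, h * y * h⁻¹ = s * y ^ i * s⁻¹ := by
  have h1 : orderOf (e ⟨y, hy⟩) = 65 := by
    rw [MulEquiv.orderOf_eq, ← h65]; exact Subgroup.orderOf_mk _ _
  have h2 : orderOf (e ⟨h * y * h⁻¹, hN.conj_mem _ hy h⟩) = 65 := by
    rw [MulEquiv.orderOf_eq, Subgroup.orderOf_mk, ← h65]
    exact (MulAut.conj h).orderOf_eq y
  obtain ⟨s, i, hs⟩ := psl65 hF h1 h2
  refine ⟨(e.symm s : N), (e.symm s).2, i, ?_⟩
  have h3 := congrArg e.symm hs
  rw [e.symm_apply_apply, map_mul, map_mul, map_inv, map_pow, e.symm_apply_apply] at h3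
  have h4 := congrArg Subtype.val h3
  simpa using h4

/-- G3 -/
theorem G3 {X : Type*} [Group X] {F : Type*} [Field F] [Fintype F] (hF : Fintype.card F = 64) (H : Subgroup X)
    (e : ↥(Cfsg.generalizedFittingSubgroup ↥H) ≃* Matrix.ProjectiveSpecialLinearGroup (Fin 2) F)
    (y : ↥H) (hy : y ∈ Cfsg.generalizedFittingSubgroup ↥H) (h65 : orderOf y = 65) (h : ↥H) :
    ∃ s ∈ Cfsg.generalizedFittingSubgroup ↥H, ∃ i : ℤ, h * y * h⁻¹ = s * y ^ i * s⁻¹ :=
  haveI := SignalizersComponents.LayerBasic.generalizedFittingSubgroup_normal ↥H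
  conj65 hF e hy h65 h

end Cfsg.Agent.H876.L64
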