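import Cfsg.Agent.H939.L64.DefT

/-!
# S5915, T5 and T6: the Lie centraliser of an element of order 65 (helper876)

`em y = z t z⁻¹`, `em g = z t' z⁻¹`, `t, t'` in the torus.

* `T6` : if `t` has the values of `Y5`, no root is trivial on `t`, so `L^y = z t₀` is fixed by `g`.
* `T5` : if `t` has the values of `Y1`, the roots trivial on `t` are `±a₂`, `±a₃`; the centre of the Lie algebra `L^y` is
  `z` times the elements of the Cartan subalgebra killed by `a₂`, `a₃` (dimension 6), fixed by `g`, and contains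
  `[z e_{a₂}, z e_{-a₂}] = z h₂ ≠ 0`.
-/

set_option autoImplicit false
set_option maxRecDepth 100000

namespace Cfsg.Agent.H876.L64

open Cfsg Cfsg.Lie Cfsg.Lie.ChevalleyDatum
open Cfsg.Agent.ChevalleyStructure Cfsg.Agent.ChevalleyStructure.Elts Cfsg.Agent.ChevalleyStructure.CoxeterGeomTypes
open Cfsg.Agent.Tits.Roots Cfsg.Agent.Nodes.BNOf Cfsg.Agent.Nodes.RGDChev Cfsg.Agent.KFacts.RgdChevCoord
open Cfsg.Agent.BpExc.TorChev Cfsg.Agent.H129.TorusChar
open Cfsg.Agent.H942.E8Tab Cfsg.Agent.H944.RootVals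
open Cfsg.Agent.H939.L64
open Cfsg.Agent.ChevalleyStructure.RootVec (rt)
open Cfsg.Agent.ChevalleyStructure.Ring Cfsg.Agent.ChevalleyStructure.LieAbs Cfsg.Agent.ChevalleyStructure.LieAut
open Cfsg.Agent.ChevalleyStructure.JacMain (adA adA_inl adA_inr adH)
open Cfsg.Agent.ChevalleyStructure.Columns (car)

/-! ### the action -/

theorem aK_mul (g h : ↥(chevE8.group KK)) (v : LK) : aK (g * h) v = aK g (aK h v) := by
  unfold aK
  rw [Subgroup.coe_mul, Units.val_mul, Matrix.mulVec_mulVec]

theorem aK_one (v : LK) : aK 1 v = v := by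
  unfold aK
  rw [Subgroup.coe_one, Units.val_one, Matrix.one_mulVec]

theorem aK_inv (g : ↥(chevE8.group KK)) (v : LK) : aK g (aK g⁻¹ v) = v := by
  rw [← aK_mul, mul_inv_cancel, aK_one]

theorem aK_inv' (g : ↥(chevE8.group KK)) (v : LK) : aK g⁻¹ (aK g v) = v := by
  rw [← aK_mul, inv_mul_cancel, aK_one]

theorem aK_add (g : ↥(chevE8.group KK)) (v w : LK) : aK g (v + w) = aK g v + aK g w :=
  Matrix.mulVec_add _ _ _

theorem aK_smul (g : ↥(chevE8.group KK)) (c : KK) (v : LK) : aK g (c • v) = c • aK g v :=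
  Matrix.mulVec_smul _ _ _

theorem aK_zero (g : ↥(chevE8.group KK)) : aK g 0 = 0 := Matrix.mulVec_zero _

theorem aK_tor {t : ↥(chevE8.group KK)} (ht : t ∈ TT chevE8 KK) (v : LK) (i : chevE8.Idx) :
    aK t v i = Sum.elim (fun _ => (1 : KK)) (fun s : Fin chevE8.nroots => cX e8T t (vec chevE8 8 s)) i * v i := by
  unfold aK
  rw [Cfsg.Agent.H942.CB.TT_diag' e8T ht, Matrix.mulVec_diagonal]

theorem hE8 : chevE8 ∈ [chevG2, chevB2, chevD4, chevF4, chevE6, chevE7, chevE8] := by simp

theorem aK_brK (g : ↥(chevE8.group KK)) (v w : LK) : aK g (brK v w) = brK (aK g v) (aK g w) :=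
  Cfsg.Agent.H971.RV.rho_br hE8 g v w

theorem fix_iff {y : E2} {z t : ↥(chevE8.group KK)} (hy : em y = z * t * z⁻¹) (v : LK) :
    rE y v = v ↔ aK t (aK z⁻¹ v) = aK z⁻¹ v := by
  rw [rE_apply, hy, aK_mul, aK_mul]
  constructor
  · intro h
    have h1 := congrArg (aK z⁻¹) h
    rwa [aK_inv'] at h1
  · intro h
    rw [h, aK_inv]

/-! ### the values of the roots -/

theorem cX_val {t : ↥(chevE8.group KK)} (ht : t ∈ TT chevE8 KK) {ζ : KK} (hζ0 : ζ ≠ 0) {Y : Fin 8 → ZMod 65}
    (hv : ∀ i, cX e8T t (sr i) = ζ ^ (Y i).val) (s : ℕ) :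
    cX e8T t (vec chevE8 8 s) = ζ ^ (∑ i : Fin 8, ((Y i).val : ℤ) * rt chevE8 s i) := by
  rw [(isMC_cX e8T ht).eq_prod]
  have h1 : ∀ F : Finset (Fin 8), ∏ i ∈ F, cX e8T t (sr i) ^ vec chevE8 8 s i =
      ζ ^ (∑ i ∈ F, ((Y i).val : ℤ) * rt chevE8 s i) := by
    intro F
    classical
    induction F using Finset.induction_on with
    | empty => rw [Finset.prod_empty, Finset.sum_empty, zpow_zero]
    | insert a F ha ih =>
      rw [Finset.prod_insert ha, Finset.sum_insert ha, ih, zpow_add₀ hζ0, hv, ← zpow_natCast, ← zpow_mul]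
      rfl
  exact h1 _

/-- the value of a root, `Y5` -/
def v5 (s : ℕ) : ℤ := 1 * rt chevE8 s 0 + 5 * rt chevE8 s 1 + 3 * rt chevE8 s 2 + 1 * rt chevE8 s 3 +
  1 * rt chevE8 s 4 + 2 * rt chevE8 s 5 + 3 * rt chevE8 s 6 + 3 * rt chevE8 s 7

/-- the value of a root, `Y1` -/
def v1 (s : ℕ) : ℤ := 1 * rt chevE8 s 0 + 0 * rt chevE8 s 1 + 0 * rt chevE8 s 2 + 1 * rt chevE8 s 3 +
  1 * rt chevE8 s 4 + 2 * rt chevE8 s 5 + 4 * rt chevE8 s 6 + 8 * rt chevE8 s 7

theorem sum_v5 (s : ℕ) : ∑ i : Fin 8, ((Y5 i).val : ℤ) * rt chevE8 s i = v5 s := by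
  rw [Fin.sum_univ_eight]
  rfl

theorem sum_v1 (s : ℕ) : ∑ i : Fin 8, ((Y1 i).val : ℤ) * rt chevE8 s i = v1 s := by
  rw [Fin.sum_univ_eight]
  rfl

theorem chk5 : ((List.range 240).all fun s => decide (v5 s % 65 ≠ 0)) = true := by decide +kernel

theorem chk1 : ((List.range 240).all fun s => decide (v1 s % 65 = 0 → s = 141 ∨ s = 135 ∨ s = 98 ∨ s = 104)) = true := by
  decide +kernel

theorem ne5 {s : ℕ} (hs : s < 240) : v5 s % 65 ≠ 0 :=
  of_decide_eq_true (List.all_eq_true.1 chk5 s (List.mem_range.2 hs))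

theorem eq1 {s : ℕ} (hs : s < 240) (h : v1 s % 65 = 0) : s = 141 ∨ s = 135 ∨ s = 98 ∨ s = 104 :=
  of_decide_eq_true (List.all_eq_true.1 chk1 s (List.mem_range.2 hs)) h

theorem chk0 : v1 141 = 0 ∧ v1 98 = 0 := by decide +kernel

/-- the Cartan integers of the four roots modulo 2 -/
theorem chkCar : car chevE8 3 141 = -1 ∧ car chevE8 3 135 = -1 ∧ car chevE8 3 98 = 1 ∧ car chevE8 3 104 = 1 ∧
    car chevE8 1 141 = 2 ∧ car chevE8 1 98 = -2 ∧ car chevE8 1 135 = 0 ∧ car chevE8 1 104 = 0 := by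
  decide +kernel

theorem chkCarNeg : ((List.range 8).all fun i => decide (car chevE8 i 98 = - car chevE8 i 141 ∧
    car chevE8 i 104 = - car chevE8 i 135)) = true := by decide +kernel

/-! ### T6 -/

/-- **T6** (type (ii)): `g` fixes `L^y` pointwise -/
theorem T6 {y g : E2} {ζ : KK} {z t t' : ↥(chevE8.group KK)} (hζ : IsPrimitiveRoot ζ 65)
    (ht : t ∈ Cfsg.Agent.KFacts.RgdChevCoord.TT chevE8 KK) (ht' : t' ∈ Cfsg.Agent.KFacts.RgdChevCoord.TT chevE8 KK)
    (hy : em y = z * t * z⁻¹) (hg : em g = z * t' * z⁻¹)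
    (hv : ∀ i, Cfsg.Agent.H129.TorusChar.cX e8T t (Cfsg.Agent.Tits.Roots.sr i) = ζ ^ (Y5 i).val) :
    ∀ v, rE y v = v → rE g v = v := by
  intro v h
  rw [fix_iff hy] at h
  rw [fix_iff hg]
  have hζ0 : ζ ≠ 0 := hζ.ne_zero (by norm_num)
  funext i
  rcases i with i | s
  · rw [aK_tor ht']
    simp
  · have h1 := congrFun h (Sum.inr s)
    rw [aK_tor ht] at h1
    have h2 : aK z⁻¹ v (Sum.inr s) = 0 := by
      by_contra h0
      have h3 : cX e8T t (vec chevE8 8 s) * aK z⁻¹ v (Sum.inr s) = 1 * aK z⁻¹ v (Sum.inr s) := by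
        rw [one_mul]; exact h1
      have h4 := mul_right_cancel₀ h0 h3
      rw [cX_val ht hζ0 hv, sum_v5, hζ.zpow_eq_one_iff_dvd] at h4
      exact ne5 s.2 (Int.emod_eq_zero_of_dvd h4)
    rw [aK_tor ht', h2, mul_zero]

/-! ### brackets -/

theorem two_zero : (2 : KK) = 0 := by
  have : CharP KK 2 := charP_of_injective_algebraMap (algebraMap (ZMod 2) KK).injective 2
  exact_mod_cast CharP.cast_eq_zero KK 2

/-- the bracket with an element of the Cartan basis on the right -/
theorem br_h (u : LK) (i : Fin chevE8.rank) (s : Fin chevE8.nroots) :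
    brK u (Pi.single (Sum.inl i) 1) (Sum.inr s) = -((car chevE8 i s : ℤ) : KK) * u (Sum.inr s) := by
  show (adv (adR chevE8 KK) u).mulVec (Pi.single (Sum.inl i) 1) (Sum.inr s) = _
  rw [Matrix.mulVec_single_one]
  show (∑ j, u j • adR chevE8 KK j) (Sum.inr s) (Sum.inl i) = _
  rw [Matrix.sum_apply, Finset.sum_eq_single (Sum.inr s)]
  · rw [Matrix.smul_apply, adR_def, Matrix.map_apply, adA_inr, coefE_entry chevE8 s 1 s.2, smul_eq_mul]
    simp only [and_self, if_true]
    rw [mul_comm]
    congr 1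
    simp [car]
  · intro j _ hj
    rw [Matrix.smul_apply, adR_def, Matrix.map_apply]
    rcases j with j | r
    · rw [adA_inl, adH, Matrix.diagonal_apply_ne _ (by simp)]
      simp
    · rw [adA_inr, coefE_entry chevE8 r 1 r.2]
      have : ¬ ((s : ℕ) = r) := fun h => hj (by rw [Fin.ext h])
      simp [this]
  · intro h
    exact absurd (Finset.mem_univ _) h

/-- the bracket with an element of the Cartan subalgebra on the left -/
theorem h_br (c : Fin chevE8.rank → KK) (w : LK) :
    brK (Sum.elim c 0) w = (Sum.elim (fun _ => (0 : KK)) (fun s : Fin chevE8.nroots =>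
      (∑ i, c i * ((car chevE8 i s : ℤ) : KK)) * w (Sum.inr s)) : LK) := by
  show (adv (adR chevE8 KK) (Sum.elim c 0)).mulVec w = _
  have h1 : adv (adR chevE8 KK) (Sum.elim c 0) = Matrix.diagonal (Sum.elim (fun _ => (0 : KK))
      (fun s : Fin chevE8.nroots => ∑ i, c i * ((car chevE8 i s : ℤ) : KK))) := by
    unfold adv
    rw [Fintype.sum_sum_type]
    ext a b
    rw [Matrix.add_apply, Matrix.sum_apply, Matrix.sum_apply]
    have h2 : ∑ x : Fin chevE8.nroots, ((Sum.elim c 0 : LK) (Sum.inr x) • adR chevE8 KK (Sum.inr x)) a b = 0 :=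
      Finset.sum_eq_zero fun x _ => by simp
    rw [h2, add_zero]
    rcases a with a | a
    · rcases b with b | b
      · by_cases hab : a = b
        · subst hab
          rw [Matrix.diagonal_apply_eq]
          refine Finset.sum_eq_zero fun x _ => ?_
          rw [Matrix.smul_apply, adR_def, Matrix.map_apply, adA_inl, adH, Matrix.diagonal_apply_eq]
          simp
        · rw [Matrix.diagonal_apply_ne _ (fun h => hab (Sum.inl.inj h))]
          refine Finset.sum_eq_zero fun x _ => ?_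
          rw [Matrix.smul_apply, adR_def, Matrix.map_apply, adA_inl, adH,
            Matrix.diagonal_apply_ne _ (fun h => hab (Sum.inl.inj h))]
          simp
      · rw [Matrix.diagonal_apply_ne _ (by simp)]
        refine Finset.sum_eq_zero fun x _ => ?_
        rw [Matrix.smul_apply, adR_def, Matrix.map_apply, adA_inl, adH, Matrix.diagonal_apply_ne _ (by simp)]
        simp
    · by_cases hab : (Sum.inr a : chevE8.Idx) = b
      · subst hab
        rw [Matrix.diagonal_apply_eq]
        refine Finset.sum_congr rfl fun x _ => ?_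
        rw [Matrix.smul_apply, adR_def, Matrix.map_apply, adA_inl, adH, Matrix.diagonal_apply_eq]
        simp
      · rw [Matrix.diagonal_apply_ne _ hab]
        refine Finset.sum_eq_zero fun x _ => ?_
        rw [Matrix.smul_apply, adR_def, Matrix.map_apply, adA_inl, adH, Matrix.diagonal_apply_ne _ hab]
        simp
  rw [h1]
  funext a
  rw [Matrix.mulVec_diagonal]
  rcases a with a | a
  · simp
  · simp

/-- the index of `a₂` -/
def r2 : Fin chevE8.nroots := ⟨141, by decide +kernel⟩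

/-- the index of `-a₂` -/
def r2' : Fin chevE8.nroots := ⟨98, by decide +kernel⟩

theorem r2_val : (r2 : ℕ) = 141 := rfl

theorem r2'_val : (r2' : ℕ) = 98 := rfl

theorem chkNeg : chevE8.negIdx.getD 141 0 = 98 := by decide +kernel

theorem chkCo : ((List.range 8).all fun i => decide ((chevE8.coroot.getD 141 #[]).getD i 0 = if i = 1 then 1 else 0)) = true := by
  decide +kernel

/-- `[e_{a₂}, e_{-a₂}] = h₂` -/
theorem br_e : brK (Pi.single (Sum.inr r2) 1) (Pi.single (Sum.inr r2') 1) =
    (Sum.elim (fun i : Fin chevE8.rank => if i.val = 1 then (1 : KK) else 0) 0 : LK) := by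
  show (adv (adR chevE8 KK) (Pi.single (Sum.inr r2) 1)).mulVec (Pi.single (Sum.inr r2') 1) = _
  rw [adv_single_one, Matrix.mulVec_single_one]
  funext a
  show adR chevE8 KK (Sum.inr r2) a (Sum.inr r2') = _
  rw [adR_def, Matrix.map_apply, adA_inr, coefE_entry chevE8 r2 1 r2.2]
  have e1 : ¬ ((r2' : ℕ) = r2) := by decide
  have e2 : (r2' : ℕ) = chevE8.negIdx.getD r2 0 := chkNeg.symm
  rcases a with a | a
  · simp only [Sum.elim_inl]
    rw [if_neg e1, if_pos e2]
    simp only [if_true]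
    have h1 := of_decide_eq_true (List.all_eq_true.1 chkCo a.val (List.mem_range.2 a.2))
    have h2 : (chevE8.coroot.getD (r2 : ℕ) #[]).getD a.val 0 = if a.val = 1 then 1 else 0 := h1
    rw [h2]
    split_ifs <;> simp
  · simp only [Sum.elim_inr]
    rw [if_neg e1, if_pos e2]
    simp

/-! ### T5 -/

/-- the centre of the Lie centraliser of `y` -/
noncomputable def Zy (y : E2) : Submodule KK LK where
  carrier := {v | rE y v = v ∧ ∀ w, rE y w = w → brK v w = 0}
  add_mem' := by
    rintro a b ⟨ha, ha'⟩ ⟨hb, hb'⟩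
    refine ⟨by rw [map_add, ha, hb], fun w hw => ?_⟩
    show Cfsg.Agent.H971.RV.br chevE8 KK (a + b) w = 0
    rw [Cfsg.Agent.H971.RV.br_add_left]
    rw [show Cfsg.Agent.H971.RV.br chevE8 KK a w = 0 from ha' w hw,
      show Cfsg.Agent.H971.RV.br chevE8 KK b w = 0 from hb' w hw, add_zero]
  zero_mem' := by
    refine ⟨map_zero _, fun w _ => ?_⟩
    show (adv (adR chevE8 KK) 0).mulVec w = 0
    rw [adv_zero, Matrix.zero_mulVec]
  smul_mem' := by
    rintro c a ⟨ha, ha'⟩
    refine ⟨by rw [map_smul, ha], fun w hw => ?_⟩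
    show Cfsg.Agent.H971.RV.br chevE8 KK (c • a) w = 0
    rw [Cfsg.Agent.H971.RV.br_smul_left, show Cfsg.Agent.H971.RV.br chevE8 KK a w = 0 from ha' w hw, smul_zero]

theorem mem_Zy {y : E2} {v : LK} : v ∈ Zy y ↔ rE y v = v ∧ ∀ w, rE y w = w → brK v w = 0 := Iff.rfl

section

variable {y g : E2} {ζ : KK} {z t t' : ↥(chevE8.group KK)} (hζ : IsPrimitiveRoot ζ 65)
    (ht : t ∈ TT chevE8 KK) (hy : em y = z * t * z⁻¹)
    (hv : ∀ i, cX e8T t (sr i) = ζ ^ (Y1 i).val)

include hζ ht hv in
/-- vectors fixed by `t` are supported on the Cartan subalgebra and the four roots -/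
theorem supp {u : LK} (hu : aK t u = u) {s : Fin chevE8.nroots} (h0 : u (Sum.inr s) ≠ 0) :
    s.val = 141 ∨ s.val = 135 ∨ s.val = 98 ∨ s.val = 104 := by
  have hζ0 : ζ ≠ 0 := hζ.ne_zero (by norm_num)
  have h1 := congrFun hu (Sum.inr s)
  rw [aK_tor ht] at h1
  have h3 : cX e8T t (vec chevE8 8 s) * u (Sum.inr s) = 1 * u (Sum.inr s) := by
    rw [one_mul]; exact h1
  have h4 := mul_right_cancel₀ h0 h3
  rw [cX_val ht hζ0 hv, sum_v1, hζ.zpow_eq_one_iff_dvd] at h4
  exact eq1 s.2 (Int.emod_eq_zero_of_dvd h4)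

include ht in
theorem fix_h (c : Fin chevE8.rank → KK) : aK t (Sum.elim c 0) = Sum.elim c 0 := by
  funext a
  rw [aK_tor ht]
  rcases a with a | a <;> simp

include hζ ht hv in
theorem fix_e {s : Fin chevE8.nroots} (hs : v1 s = 0) : aK t (Pi.single (Sum.inr s) 1) = Pi.single (Sum.inr s) 1 := by
  have hζ0 : ζ ≠ 0 := hζ.ne_zero (by norm_num)
  funext a
  rw [aK_tor ht]
  by_cases ha : a = Sum.inr s
  · subst ha
    simp only [Sum.elim_inr]
    rw [cX_val ht hζ0 hv, sum_v1, hs, zpow_zero, one_mul]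
  · rw [Pi.single_eq_of_ne ha, mul_zero]

include hζ ht hy hv in
/-- the centre lies in the Cartan subalgebra -/
theorem centre_le {v : LK} (h : v ∈ Zy y) (s : Fin chevE8.nroots) : aK z⁻¹ v (Sum.inr s) = 0 := by
  by_contra h0
  obtain ⟨h1, h2⟩ := h
  have hu := (fix_iff hy v).1 h1
  have h3 := supp hζ ht hv hu h0
  -- the test vector
  have hw : rE y (aK z (Pi.single (Sum.inl (⟨3, by decide +kernel⟩ : Fin chevE8.rank)) 1)) =
      aK z (Pi.single (Sum.inl (⟨3, by decide +kernel⟩ : Fin chevE8.rank)) 1) := by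
    rw [fix_iff hy, aK_inv']
    funext a
    rw [aK_tor ht]
    rcases a with a | a
    · simp
    · simp
  have h4 := h2 _ hw
  have h5 : brK (aK z⁻¹ v) (Pi.single (Sum.inl (⟨3, by decide +kernel⟩ : Fin chevE8.rank)) 1) = 0 := by
    have h6 := congrArg (aK z⁻¹) h4
    rw [aK_brK, aK_inv', aK_zero] at h6
    exact h6
  have h6 := congrFun h5 (Sum.inr s)
  rw [br_h] at h6
  obtain ⟨c1, c2, c3, c4, -⟩ := chkCar
  rcases mul_eq_zero.1 h6 with h7 | h7
  · rcases h3 with h | h | h | h
    · rw [h] at h7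
      change -((car chevE8 3 141 : ℤ) : KK) = 0 at h7
      rw [c1] at h7; simp at h7
    · rw [h] at h7
      change -((car chevE8 3 135 : ℤ) : KK) = 0 at h7
      rw [c2] at h7; simp at h7
    · rw [h] at h7
      change -((car chevE8 3 98 : ℤ) : KK) = 0 at h7
      rw [c3] at h7; simp at h7
    · rw [h] at h7
      change -((car chevE8 3 104 : ℤ) : KK) = 0 at h7
      rw [c4] at h7; simp at h7
  · exact h0 h7

/-- the two functionals `a₂`, `a₃` on the Cartan subalgebra -/
noncomputable def fl : (Fin chevE8.rank → KK) →ₗ[KK] (Fin 2 → KK) where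
  toFun c := ![∑ i, c i * ((car chevE8 i 141 : ℤ) : KK), ∑ i, c i * ((car chevE8 i 135 : ℤ) : KK)]
  map_add' a b := by
    ext j
    fin_cases j <;> simp [add_mul, Finset.sum_add_distrib]
  map_smul' a b := by
    ext j
    fin_cases j <;> simp [mul_assoc, Finset.mul_sum]

include hζ ht hy hv in
theorem mem_centre {c : Fin chevE8.rank → KK} (hc : fl c = 0) : aK z (Sum.elim c 0) ∈ Zy y := by
  refine ⟨by rw [fix_iff hy, aK_inv', fix_h ht], fun w hw => ?_⟩
  have hu := (fix_iff hy w).1 hw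
  have h1 : brK (Sum.elim c 0) (aK z⁻¹ w) = 0 := by
    rw [h_br]
    funext a
    rcases a with a | s
    · rfl
    · show (∑ i, c i * ((car chevE8 i s : ℤ) : KK)) * aK z⁻¹ w (Sum.inr s) = 0
      by_cases h0 : aK z⁻¹ w (Sum.inr s) = 0
      · rw [h0, mul_zero]
      · have h3 := supp hζ ht hv hu h0
        have e1 : ∑ i, c i * ((car chevE8 i 141 : ℤ) : KK) = 0 := congrFun hc 0
        have e2 : ∑ i, c i * ((car chevE8 i 135 : ℤ) : KK) = 0 := congrFun hc 1
        have e3 : ∀ i : Fin chevE8.rank, car chevE8 i 98 = - car chevE8 i 141 ∧ car chevE8 i 104 = - car chevE8 i 135 :=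
          fun i => of_decide_eq_true (List.all_eq_true.1 chkCarNeg i.val (List.mem_range.2 i.2))
        have hz : ∑ i, c i * ((car chevE8 i s : ℤ) : KK) = 0 := by
          rcases h3 with h | h | h | h <;> rw [h]
          · exact e1
          · exact e2
          · rw [← neg_eq_zero, ← e1, ← Finset.sum_neg_distrib]
            refine Finset.sum_congr rfl fun i _ => ?_
            rw [(e3 i).1]
            push_cast
            ring
          · rw [← neg_eq_zero, ← e2, ← Finset.sum_neg_distrib]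
            refine Finset.sum_congr rfl fun i _ => ?_
            rw [(e3 i).2]
            push_cast
            ring
        rw [hz, zero_mul]
  have h2 := congrArg (aK z) h1
  rw [aK_brK, aK_inv, aK_zero] at h2
  exact h2

end

/-- **T5** (type (i)): the centre of the Lie centraliser -/
theorem T5 {y g : E2} {ζ : KK} {z t t' : ↥(chevE8.group KK)} (hζ : IsPrimitiveRoot ζ 65)
    (ht : t ∈ Cfsg.Agent.KFacts.RgdChevCoord.TT chevE8 KK) (ht' : t' ∈ Cfsg.Agent.KFacts.RgdChevCoord.TT chevE8 KK)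
    (hy : em y = z * t * z⁻¹) (hg : em g = z * t' * z⁻¹)
    (hv : ∀ i, Cfsg.Agent.H129.TorusChar.cX e8T t (Cfsg.Agent.Tits.Roots.sr i) = ζ ^ (Y1 i).val) :
    6 ≤ Module.finrank KK (Zy y) ∧ (∀ v ∈ Zy y, rE g v = v) ∧
      ∃ a b, rE y a = a ∧ rE y b = b ∧ brK a b ∈ Zy y ∧ brK a b ≠ 0 := by
  refine ⟨?_, fun v hvz => ?_, ?_⟩
  · -- dimension
    let j : LinearMap.ker fl →ₗ[KK] Zy y :=
      { toFun := fun c => ⟨aK z (Sum.elim c.1 0), mem_centre hζ ht hy hv c.2⟩
        map_add' := by
          intro a b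
          apply Subtype.ext
          show aK z (Sum.elim (a.1 + b.1) 0) = aK z (Sum.elim a.1 0) + aK z (Sum.elim b.1 0)
          rw [← aK_add]
          congr 1
          funext i
          rcases i with i | i <;> simp
        map_smul' := by
          intro r a
          apply Subtype.ext
          show aK z (Sum.elim (r • a.1) 0) = r • aK z (Sum.elim a.1 0)
          rw [← aK_smul]
          congr 1
          funext i
          rcases i with i | i <;> simp }
    have hj : Function.Injective j := by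
      intro a b hab
      have h1 : aK z (Sum.elim a.1 0) = aK z (Sum.elim b.1 0) := congrArg Subtype.val hab
      have h2 := congrArg (aK z⁻¹) h1
      rw [aK_inv', aK_inv'] at h2
      apply Subtype.ext
      funext i
      exact congrFun h2 (Sum.inl i)
    have h1 := LinearMap.finrank_le_finrank_of_injective hj
    have h2 := LinearMap.finrank_range_add_finrank_ker fl
    have h3 : Module.finrank KK (LinearMap.range fl) ≤ 2 := by
      have h4 := Submodule.finrank_le (LinearMap.range fl)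
      rwa [Module.finrank_fin_fun] at h4
    have h4 : Module.finrank KK (Fin chevE8.rank → KK) = 8 := by
      rw [Module.finrank_fin_fun]
      rfl
    omega
  · rw [fix_iff hg]
    funext i
    rw [aK_tor ht']
    rcases i with i | s
    · simp
    · rw [centre_le hζ ht hy hv hvz s, mul_zero]
  · have f1 : v1 (r2 : ℕ) = 0 := by rw [r2_val]; exact chk0.1
    have f2 : v1 (r2' : ℕ) = 0 := by rw [r2'_val]; exact chk0.2
    have g1 : aK t (Pi.single (Sum.inr r2) 1) = Pi.single (Sum.inr r2) 1 := fix_e hζ ht hv f1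
    have g2 : aK t (Pi.single (Sum.inr r2') 1) = Pi.single (Sum.inr r2') 1 := fix_e hζ ht hv f2
    have hb : brK (aK z (Pi.single (Sum.inr r2) 1)) (aK z (Pi.single (Sum.inr r2') 1)) =
        aK z (Sum.elim (fun i : Fin chevE8.rank => if i.val = 1 then (1 : KK) else 0) 0) := by
      rw [← aK_brK, br_e]
    refine ⟨aK z (Pi.single (Sum.inr r2) 1), aK z (Pi.single (Sum.inr r2') 1), ?_, ?_, ?_, ?_⟩
    · rw [fix_iff hy, aK_inv', g1]
    · rw [fix_iff hy, aK_inv', g2]
    · rw [hb]
      refine mem_centre hζ ht hy hv ?_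
      obtain ⟨-, -, -, -, c1, -, c2, -⟩ := chkCar
      have hsum : ∀ f : Fin chevE8.rank → KK, ∑ i : Fin chevE8.rank, (if i.val = 1 then (1 : KK) else 0) * f i =
          f ⟨1, by decide +kernel⟩ := by
        intro f
        rw [Finset.sum_eq_single ⟨1, by decide +kernel⟩]
        · simp
        · intro b _ hb
          have : ¬ b.val = 1 := fun h => hb (Fin.ext h)
          simp [this]
        · intro h
          exact absurd (Finset.mem_univ _) h
      funext j
      fin_cases j
      · show ∑ i : Fin chevE8.rank, (if i.val = 1 then (1 : KK) else 0) * ((car chevE8 i 141 : ℤ) : KK) = 0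
        rw [hsum]
        show ((car chevE8 1 141 : ℤ) : KK) = 0
        rw [c1]
        exact_mod_cast two_zero
      · show ∑ i : Fin chevE8.rank, (if i.val = 1 then (1 : KK) else 0) * ((car chevE8 i 135 : ℤ) : KK) = 0
        rw [hsum]
        show ((car chevE8 1 135 : ℤ) : KK) = 0
        rw [c2]
        simp
    · rw [hb]
      intro h
      have h1 := congrArg (aK z⁻¹) h
      rw [aK_inv', aK_zero] at h1
      have h2 := congrFun h1 (Sum.inl ⟨1, by decide +kernel⟩)
      simp at h2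

end Cfsg.Agent.H876.L64
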